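import Cfsg.Agent.H932.TC6.TwD4
import Cfsg.Agent.H932.TC6.SLPair
import Cfsg.Agent.H777.T6.Defs

/-!
The row `³D₄(q)`, `q ∉ {2, 3, 5, 7, 17}` of S2464.
-/

set_option autoImplicit false

namespace Cfsg.Agent.H932.TC6.Row

open Cfsg.Lie

universe u

/-- **`³D₄(q)`.** -/
theorem t6_twistedD4 {K : Type u} [Field K] [Fintype K] {q : ℕ} (hq : IsPrimePow q) (hK : Fintype.card K = q ^ 3)
    (h2 : q ≠ 2) (h3 : q ≠ 3) (h5 : q ≠ 5) (h7 : q ≠ 7) (h17 : q ≠ 17) :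
    Cfsg.Agent.H777.T6.T6 ↥(twistedD4 K q) :=
  Cfsg.Agent.H932.TC6.TwD4.main hq hK (fun F _ _ X hX a b h => by
    let _ : Fintype F := Fintype.ofFinite F
    exact Cfsg.Agent.H932.TC6.SLPair.exists_pair X hX a b h) h2 h3 h5 h7 h17

theorem six_twistedD4 {S : Type u} [Group S] {K : Type u} [Field K] [Fintype K] {q : ℕ} (hq : IsPrimePow q)
    (hK : Fintype.card K = q ^ 3) (h2 : q ≠ 2) (h3 : q ≠ 3) (h5 : q ≠ 5) (h7 : q ≠ 7) (h17 : q ≠ 17)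
    (e : S ≃* ↥(twistedD4 K q)) : Cfsg.Agent.H777.T6.T6 S :=
  Cfsg.Agent.H777.T6.T6.of_equiv e (t6_twistedD4 hq hK h2 h3 h5 h7 h17)

end Cfsg.Agent.H932.TC6.Row
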